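import Cfsg.Agent.H574.IFO.Kills
import Cfsg.Agent.H202.Psu

/-!
# S5719, `PSU_n(q)`, `|A|` odd, `n` odd (helper14 for helper574): the involutions of `Γ` are graph automorphisms
-/

set_option autoImplicit false
set_option linter.unusedSectionVars false

namespace Cfsg.Agent.H14.IFO

open Matrix Subgroup Cfsg.Agent.H198.FC Cfsg.Agent.LieClassical.HermBasic Cfsg.Agent.LieClassical.HermSiegel
  Cfsg.Agent.ClassicalGeometry.PSUAutCount Cfsg.Agent.Schreier.PSU Cfsg.Agent.H602.FC Cfsg.Agent.H209.Fxy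
  Cfsg.Agent.H574.IFO
open Cfsg.Agent.ClassicalGeometry.UnitAutBasic (pr pr_surjective)

section

variable {n : ℕ} {F : Type} [Field F] [Fintype F] {q : ℕ} (hF : Fintype.card F = q ^ 2)

include hF in
/-- a linear involution is inner (`n` odd) -/
theorem inner_of_lin (hn : 3 ≤ n) (hodd' : Odd n) {g : Cfsg.GU n F q} (h2 : (toAut g 1 : MulAut (Cfsg.PSU n F q)) ^ 2 = 1) :
    ∃ s : Cfsg.SU n F q, (toAut g 1 : MulAut (Cfsg.PSU n F q)) = MulAut.conj (pr n F q s) := by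
  have h3 : (toAut (1 : Cfsg.GU n F q) 1 : MulAut (Cfsg.PSU n F q)) = toAut (g * g) 1 := by
    have e1 : (toAut (g * g) 1 : MulAut (Cfsg.PSU n F q)) = toAut g 1 ^ 2 := by
      rw [pow_two]
      exact map_mul (f₁ (F := F) (n := n) (q := q)) g g
    rw [e1, h2]
    exact map_one (f₁ (F := F) (n := n) (q := q))
  obtain ⟨-, c, hc, hcg⟩ := eq_of_toAut_eq hF hn h3
  rw [gm_mul, gm_one] at hcg
  obtain ⟨k, hk⟩ := hodd'
  set d := (gm g).det with hd
  have hdd : d * d = c ^ n := by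
    have h4 := congrArg Matrix.det hcg
    rw [Matrix.det_mul, Matrix.det_smul, Matrix.det_one, mul_one, Fintype.card_fin] at h4
    exact h4
  have hdq : d ^ (q + 1) = 1 := ClassicalGeometry.GUBasic.det_pow hF ((ClassicalGeometry.GUBasic.mem_GU_iff _).1 g.2)
  have hcq : c ^ (q + 1) = 1 := by rw [pow_succ', hc]
  let z : F := d * (c ^ q) ^ (k + 1)
  have hzd : z ^ n * d = 1 := by
    change (d * (c ^ q) ^ (k + 1)) ^ n * d = 1
    have e1 : (d * (c ^ q) ^ (k + 1)) ^ n * d = (d * d) ^ (k + 1) * ((c ^ q) ^ n) ^ (k + 1) := by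
      rw [mul_pow, hk]
      ring
    rw [e1, hdd, ← mul_pow, ← mul_pow, hc, one_pow, one_pow]
  have hzq : z * z ^ q = 1 := by
    rw [← pow_succ']
    change (d * (c ^ q) ^ (k + 1)) ^ (q + 1) = 1
    have e1 : (d * (c ^ q) ^ (k + 1)) ^ (q + 1) = d ^ (q + 1) * ((c ^ (q + 1)) ^ q) ^ (k + 1) := by ring
    rw [e1, hdq, hcq, one_pow, one_pow, mul_one]
  let g' : Cfsg.GU n F q := sc n ⟨z, hzq⟩ * g
  have hg' : gm g' = z • gm g := gm_sc_mul ⟨z, hzq⟩ g
  have hdet : LinearMap.det ((U n F (g' : GL (Fin n) F) : (R F (V n F))ˣ) : R F (V n F)) = 1 := by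
    rw [coe_U]
    change LinearMap.det (Matrix.toLin' (gm g')) = 1
    rw [LinearMap.det_toLin', hg', Matrix.det_smul, Fintype.card_fin]
    exact hzd
  obtain ⟨s, hs⟩ := exists_su hF hdet (gu_isom hF g')
  refine ⟨s, ?_⟩
  have h5 : gm g' = mat s := by
    apply (E n F).injective
    rw [← coe_us, hs]
    rfl
  rw [← f₁_eq_conj g' s h5]
  exact (toAut_sc_mul ⟨z, hzq⟩ g 1).symm

include hF in
/-- **the involutions of `Γ` are graph automorphisms** -/
theorem graph_of [IsSimpleGroup (Cfsg.PSU n F q)] (hn : 3 ≤ n) (h32 : ¬ (n = 3 ∧ q = 2))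
    {A : Subgroup (Cfsg.PSU n F q)} {Γ : Subgroup (MulAut (Cfsg.PSU n F q))} (h : IF A Γ) (hodd : Odd (Nat.card A))
    (hodd' : Odd n) {σ : MulAut (Cfsg.PSU n F q)} (hσ : σ ∈ Γ) (ho : orderOf σ = 2) :
    IsGraphAutClassPSU σ ∧ ∃ f, ((f, σ) : GGU n F q) ∈ HU n F q ∧
      ∃ c : F, f (c • (1 : R F (V n F))) ≠ c • (1 : R F (V n F)) := by
  obtain ⟨g, ρ, rfl⟩ := ClassicalGeometry.PSUAutMain.exists_toAut hF hn h32 σ
  have h2 : (toAut g ρ : MulAut (Cfsg.PSU n F q)) ^ 2 = 1 := by rw [← ho, pow_orderOf_eq_one]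
  obtain ⟨hρ2, -⟩ := Cfsg.Agent.CpAutU.Desc.exists_scalar hF hn h2
  have hρ : ρ ≠ 1 := by
    rintro rfl
    obtain ⟨s, hs⟩ := inner_of_lin hF hn hodd' h2
    rw [hs] at hσ h2 ho
    have h3 := (h.conj _).1 hσ
    have h4 : pr n F q s ^ 2 = 1 := by
      apply center_bot h
      intro y
      rw [← map_pow] at h2
      have h5 := DFunLike.congr_fun h2 y
      rw [MulAut.conj_apply, MulAut.one_apply, mul_inv_eq_iff_eq_mul] at h5
      exact h5
    have h5 : pr n F q s ≠ 1 := by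
      intro h6
      rw [h6, map_one, orderOf_one] at ho
      omega
    have h6 : orderOf (pr n F q s) = 2 := orderOf_eq_prime h4 h5
    exact odd_of_mem hodd h3 (by rw [h6]; exact even_two)
  have hρo : orderOf ρ = 2 := orderOf_eq_prime hρ2 hρ
  refine ⟨⟨hn, f₁ g, f₂ ρ, ρ, by rw [hρo]; exact even_two, (Cfsg.Agent.H202.Psu.inndiag_iff _).2 ⟨g, rfl⟩,
    (Cfsg.Agent.H202.Psu.isFieldAut_iff _ _).2 rfl, toAut_eq g ρ⟩, (AU n F q g * BU n F q ρ).1, ?_, ?_⟩
  · refine ⟨g, ρ, ?_⟩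
    exact Prod.ext rfl (toAut_eq g ρ)
  · have h3 : ∃ c, ρ c ≠ c := by
      by_contra hcon
      push Not at hcon
      exact hρ (RingEquiv.ext hcon)
    obtain ⟨c, hc⟩ := h3
    refine ⟨c, ?_⟩
    have e1 : c • (1 : R F (V n F)) = E n F (c • (1 : Matrix (Fin n) (Fin n) F)) := by
      rw [map_smul, map_one]
    have e2 : (c • (1 : Matrix (Fin n) (Fin n) F)).map ρ = ρ c • (1 : Matrix (Fin n) (Fin n) F) := by
      ext i j
      rw [Matrix.map_apply, Matrix.smul_apply, Matrix.smul_apply, smul_eq_mul, smul_eq_mul, map_mul]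
      congr 1
      by_cases hij : i = j
      · subst hij
        rw [Matrix.one_apply_eq, map_one]
      · rw [Matrix.one_apply_ne hij, map_zero]
    have h4 : (AU n F q g * BU n F q ρ).1 (c • (1 : R F (V n F))) = ρ c • (1 : R F (V n F)) := by
      change H198.FC.cj F (V n F) (U n F (g : GL (Fin n) F)) (fm n F ρ (c • (1 : R F (V n F)))) = _
      rw [e1, fm_E, e2, map_smul, map_one, cj_apply, mul_smul_comm, mul_one, smul_mul_assoc, Units.mul_inv]
    rw [h4]
    intro h5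
    apply hc
    have h6 := LinearMap.congr_fun h5 (Pi.single ⟨0, by omega⟩ 1)
    have h7 := congrFun h6 ⟨0, by omega⟩
    simpa using h7

end

end Cfsg.Agent.H14.IFO
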