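import Cfsg.Agent.H716.IFO.Jel

/-!
# S5719, `|A|` odd, linear groups (helper14 for helper716): an involution of `SL(V)` leaving two subspaces invariant
-/

set_option autoImplicit false
set_option linter.unusedSectionVars false

namespace Cfsg.Agent.H14.IFO
open Cfsg.Agent.H198.FC Cfsg.Agent.H716.FC Module

universe u v

variable {K : Type u} [Field K] {V : Type v} [AddCommGroup V] [Module K V]

theorem exists_fn {v : V} (hv : v ≠ 0) : ∃ φ : V →ₗ[K] K, φ v = 1 := by
  obtain ⟨φ, hφ⟩ := Module.Projective.exists_dual_ne_zero K hv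
  refine ⟨(φ v)⁻¹ • φ, ?_⟩
  rw [LinearMap.smul_apply, smul_eq_mul, inv_mul_cancel₀ hφ]

/-- a rank one idempotent adapted to two subspaces -/
theorem adapted [Nontrivial V] (W W' : Submodule K V) :
    ∃ (φ : V →ₗ[K] K) (v : V), φ v = 1 ∧ (v ∈ W ∨ ∀ w ∈ W, φ w = 0) ∧ (v ∈ W' ∨ ∀ w ∈ W', φ w = 0) := by
  have key : ∀ (W W' : Submodule K V), W ≠ ⊥ → W ⊓ W' = ⊥ →
      ∃ (φ : V →ₗ[K] K) (v : V), φ v = 1 ∧ v ∈ W ∧ ∀ w ∈ W', φ w = 0 := by
    intro W W' hW h
    obtain ⟨v, hv, hv0⟩ := W.ne_bot_iff.1 hW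
    have h1 : v ∉ W' := by
      intro h2
      apply hv0
      have h3 : v ∈ W ⊓ W' := ⟨hv, h2⟩
      rwa [h, Submodule.mem_bot] at h3
    obtain ⟨φ, hφ1, hφ2⟩ := Submodule.exists_le_ker_of_notMem h1
    refine ⟨(φ v)⁻¹ • φ, v, ?_, hv, ?_⟩
    · rw [LinearMap.smul_apply, smul_eq_mul, inv_mul_cancel₀ hφ1]
    · intro w hw
      have h3 : φ w = 0 := hφ2 hw
      rw [LinearMap.smul_apply, h3, smul_zero]
  by_cases h : W ⊓ W' = ⊥
  · by_cases hW : W = ⊥
    · by_cases hW' : W' = ⊥
      · obtain ⟨v, hv⟩ := exists_ne (0 : V)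
        obtain ⟨φ, hφ⟩ := exists_fn (K := K) hv
        refine ⟨φ, v, hφ, Or.inr ?_, Or.inr ?_⟩
        · intro w hw
          rw [hW, Submodule.mem_bot] at hw
          rw [hw, map_zero]
        · intro w hw
          rw [hW', Submodule.mem_bot] at hw
          rw [hw, map_zero]
      · obtain ⟨φ, v, h1, h2, h3⟩ := key W' W hW' (by rw [inf_comm]; exact h)
        exact ⟨φ, v, h1, Or.inr h3, Or.inl h2⟩
    · obtain ⟨φ, v, h1, h2, h3⟩ := key W W' hW h
      exact ⟨φ, v, h1, Or.inl h2, Or.inr h3⟩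
  · obtain ⟨v, hv, hv0⟩ := (W ⊓ W').ne_bot_iff.1 h
    obtain ⟨φ, hφ⟩ := exists_fn (K := K) hv0
    exact ⟨φ, v, hφ, Or.inl hv.1, Or.inl hv.2⟩

theorem inv_of_adapted {W : Submodule K V} {φ : V →ₗ[K] K} {v : V} (h : v ∈ W ∨ ∀ w ∈ W, φ w = 0) {w : V}
    (hw : w ∈ W) : φ w • v ∈ W := by
  rcases h with h | h
  · exact W.smul_mem _ h
  · rw [h w hw, zero_smul]
    exact W.zero_mem

/-- a second one -/
theorem adapted2 [Module.Finite K V] (W W' : Submodule K V) {φ : V →ₗ[K] K} {v : V} (h1 : φ v = 1)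
    (hW : v ∈ W ∨ ∀ w ∈ W, φ w = 0) (hW' : v ∈ W' ∨ ∀ w ∈ W', φ w = 0) (hn : 2 ≤ finrank K V) :
    ∃ (ψ : V →ₗ[K] K) (u : V), ψ u = 1 ∧ φ u = 0 ∧ ψ v = 0 ∧ (u ∈ W ∨ ∀ w ∈ W, ψ w = 0) ∧
      (u ∈ W' ∨ ∀ w ∈ W', ψ w = 0) := by
  have hnt : Nontrivial (LinearMap.ker φ) := by
    apply Module.nontrivial_of_finrank_pos (R := K)
    have h2 := LinearMap.finrank_range_add_finrank_ker φ
    have h3 : finrank K (LinearMap.range φ) ≤ 1 := by
      have := Submodule.finrank_le (LinearMap.range φ)
      rwa [Module.finrank_self] at this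
    omega
  obtain ⟨ψ, u, hu, h2, h3⟩ := adapted (W.comap (LinearMap.ker φ).subtype) (W'.comap (LinearMap.ker φ).subtype)
  have hk : ∀ w : V, (LinearMap.id - φ.smulRight v : V →ₗ[K] V) w ∈ LinearMap.ker φ := by
    intro w
    rw [LinearMap.mem_ker, LinearMap.sub_apply, LinearMap.id_apply, LinearMap.smulRight_apply, map_sub, map_smul, h1,
      smul_eq_mul, mul_one, sub_self]
  let π : V →ₗ[K] LinearMap.ker φ := LinearMap.codRestrict (LinearMap.ker φ) (LinearMap.id - φ.smulRight v) hk
  have hπ : ∀ w, ((π w : LinearMap.ker φ) : V) = w - φ w • v := fun w => rfl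
  have hπu : ∀ w : LinearMap.ker φ, π w = w := by
    intro w
    apply Subtype.ext
    rw [hπ, LinearMap.mem_ker.1 w.2, zero_smul, sub_zero]
  have hinv : ∀ (W : Submodule K V), (v ∈ W ∨ ∀ w ∈ W, φ w = 0) →
      (u ∈ W.comap (LinearMap.ker φ).subtype ∨ ∀ w ∈ W.comap (LinearMap.ker φ).subtype, ψ w = 0) →
      ((u : V) ∈ W ∨ ∀ w ∈ W, (ψ ∘ₗ π) w = 0) := by
    intro W hW h2
    rcases h2 with h2 | h2
    · exact Or.inl h2
    · right
      intro w hw
      rw [LinearMap.comp_apply]
      apply h2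
      change ((π w : LinearMap.ker φ) : V) ∈ W
      rw [hπ]
      exact W.sub_mem hw (inv_of_adapted hW hw)
  refine ⟨ψ ∘ₗ π, u, ?_, LinearMap.mem_ker.1 u.2, ?_, hinv W hW h2, hinv W' hW' h3⟩
  · rw [LinearMap.comp_apply, hπu, hu]
  · have h4 : π v = 0 := by
      apply Subtype.ext
      rw [hπ, h1, one_smul, sub_self]
      rfl
    rw [LinearMap.comp_apply, h4, map_zero]

/-- a transvection -/
theorem adaptedT [Module.Finite K V] (W W' : Submodule K V) (hn : 3 ≤ finrank K V) :
    ∃ (φ : V →ₗ[K] K) (v : V), φ v = 0 ∧ φ ≠ 0 ∧ v ≠ 0 ∧ (v ∈ W ∨ ∀ w ∈ W, φ w = 0) ∧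
      (v ∈ W' ∨ ∀ w ∈ W', φ w = 0) := by
  have key : ∀ (W W' : Submodule K V), W ⊓ W' = ⊥ → 2 ≤ finrank K W →
      ∃ (φ : V →ₗ[K] K) (v : V), φ v = 0 ∧ φ ≠ 0 ∧ v ≠ 0 ∧ v ∈ W ∧ ∀ w ∈ W', φ w = 0 := by
    intro W W' h h2
    have hnt : Nontrivial W := Module.nontrivial_of_finrank_pos (R := K) (by omega)
    obtain ⟨v, hv⟩ := exists_ne (0 : W)
    have hv0 : (v : V) ≠ 0 := fun h => hv (Subtype.ext h)
    have h3 : ∃ u ∈ W, u ∉ Submodule.span K {(v : V)} := by
      by_contra hcon
      push Not at hcon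
      have h4 : W ≤ Submodule.span K {(v : V)} := hcon
      have h5 := Submodule.finrank_mono h4
      rw [finrank_span_singleton hv0] at h5
      omega
    obtain ⟨u, hu, huv⟩ := h3
    have h4 : u ∉ W' ⊔ Submodule.span K {(v : V)} := by
      intro h5
      obtain ⟨a, ha, b, hb, hab⟩ := Submodule.mem_sup.1 h5
      apply huv
      have hbW : b ∈ W := by
        obtain ⟨c, rfl⟩ := Submodule.mem_span_singleton.1 hb
        exact W.smul_mem c v.2
      have h6 : a ∈ W ⊓ W' := ⟨by rw [eq_sub_of_add_eq hab]; exact W.sub_mem hu hbW, ha⟩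
      rw [h, Submodule.mem_bot] at h6
      rw [← hab, h6, zero_add]
      exact hb
    obtain ⟨φ, hφ1, hφ2⟩ := Submodule.exists_le_ker_of_notMem h4
    refine ⟨φ, v, ?_, ?_, hv0, v.2, ?_⟩
    · exact hφ2 (Submodule.mem_sup_right (Submodule.mem_span_singleton_self _))
    · rintro rfl
      exact hφ1 rfl
    · intro w hw
      exact hφ2 (Submodule.mem_sup_left hw)
  by_cases h : W ⊓ W' = ⊥
  · by_cases hs : W ⊔ W' = ⊤
    · have h1 := Submodule.finrank_sup_add_finrank_inf_eq W W'
      rw [hs, h, finrank_top, finrank_bot] at h1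
      rcases Nat.lt_or_ge 1 (finrank K W) with h2 | h2
      · obtain ⟨φ, v, a1, a2, a3, a4, a5⟩ := key W W' h h2
        exact ⟨φ, v, a1, a2, a3, Or.inl a4, Or.inr a5⟩
      · obtain ⟨φ, v, a1, a2, a3, a4, a5⟩ := key W' W (by rw [inf_comm]; exact h) (by omega)
        exact ⟨φ, v, a1, a2, a3, Or.inr a5, Or.inl a4⟩
    · have h1 : ∃ u, u ∉ W ⊔ W' := by
        by_contra hcon
        push Not at hcon
        exact hs (eq_top_iff.2 fun u _ => hcon u)
      obtain ⟨u, hu⟩ := h1
      obtain ⟨φ, hφ1, hφ2⟩ := Submodule.exists_le_ker_of_notMem hu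
      have hnt : Nontrivial (LinearMap.ker φ) := by
        apply Module.nontrivial_of_finrank_pos (R := K)
        have h2 := LinearMap.finrank_range_add_finrank_ker φ
        have h3 : finrank K (LinearMap.range φ) ≤ 1 := by
          have := Submodule.finrank_le (LinearMap.range φ)
          rwa [Module.finrank_self] at this
        omega
      obtain ⟨v, hv⟩ := exists_ne (0 : LinearMap.ker φ)
      refine ⟨φ, v, LinearMap.mem_ker.1 v.2, ?_, fun h => hv (Subtype.ext h), Or.inr ?_, Or.inr ?_⟩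
      · rintro rfl
        exact hφ1 rfl
      · intro w hw
        exact hφ2 (Submodule.mem_sup_left hw)
      · intro w hw
        exact hφ2 (Submodule.mem_sup_right hw)
  · obtain ⟨v, hv, hv0⟩ := (W ⊓ W').ne_bot_iff.1 h
    have h3 : ∃ u, u ∉ Submodule.span K {v} := by
      by_contra hcon
      push Not at hcon
      have h4 : (⊤ : Submodule K V) ≤ Submodule.span K {v} := fun u _ => hcon u
      have h5 := Submodule.finrank_mono h4
      rw [finrank_span_singleton hv0, finrank_top] at h5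
      omega
    obtain ⟨u, hu⟩ := h3
    obtain ⟨φ, hφ1, hφ2⟩ := Submodule.exists_le_ker_of_notMem hu
    refine ⟨φ, v, hφ2 (Submodule.mem_span_singleton_self _), ?_, hv0, Or.inl hv.1, Or.inl hv.2⟩
    rintro rfl
    exact hφ1 rfl

/-- **an involution of `SL(V)` leaving two subspaces invariant** -/
theorem two_el [Finite K] [Module.Finite K V] (hn : 3 ≤ Module.finrank K V) (W W' : Submodule K V) :
    ∃ x : (R K V)ˣ, LinearMap.det (x : R K V) = 1 ∧ cj K V x ≠ 1 ∧ x ^ 2 = 1 ∧
      (∀ w ∈ W, (x : R K V) w ∈ W) ∧ (∀ w ∈ W', (x : R K V) w ∈ W') := by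
  have hnt : Nontrivial V := Module.nontrivial_of_finrank_pos (R := K) (by omega)
  by_cases h2 : (2 : K) = 0
  · obtain ⟨φ, v, hφv, hφ, hv, hW, hW'⟩ := adaptedT W W' hn
    let N : R K V := φ.smulRight v
    have hN : ∀ w, N w = φ w • v := fun w => rfl
    have hNN : N * N = 0 := by
      ext w
      rw [Module.End.mul_apply, hN, hN, map_smul, hφv, smul_zero, zero_smul]
      rfl
    have hadd : ∀ w : V, w + w = 0 := fun w => by rw [← two_smul K w, h2, zero_smul]
    have hN2 : N + N = 0 := by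
      ext w
      exact hadd _
    have hx : (1 + N) * (1 + N) = 1 := by
      rw [mul_add, mul_one, add_mul, one_mul, hNN, add_zero, add_assoc, hN2, add_zero]
    refine ⟨⟨1 + N, 1 + N, hx, hx⟩, Cfsg.Agent.H923.FC.det_one_add hNN, ?_, ?_, ?_, ?_⟩
    · intro h3
      obtain ⟨s, hs⟩ := cj_eq_one h3
      have hs' : ∀ w, w + φ w • v = s • w := fun w => by
        have := congrArg (fun Z : R K V => Z w) hs
        simpa [hN] using this
      have hs1 : s = 1 := by
        have h4 := hs' v
        rw [hφv, zero_smul, add_zero] at h4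
        have h5 : (s - 1) • v = 0 := by rw [sub_smul, ← h4, one_smul, sub_self]
        rcases smul_eq_zero.1 h5 with h6 | h6
        · exact sub_eq_zero.1 h6
        · exact absurd h6 hv
      apply hφ
      ext w
      have h4 := hs' w
      rw [hs1, one_smul, add_eq_left] at h4
      rcases smul_eq_zero.1 h4 with h6 | h6
      · exact h6
      · exact absurd h6 hv
    · apply Units.ext
      rw [pow_two]
      exact hx
    · intro w hw
      exact W.add_mem hw (inv_of_adapted hW hw)
    · intro w hw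
      exact W'.add_mem hw (inv_of_adapted hW' hw)
  · obtain ⟨φ, v, hφv, hW, hW'⟩ := adapted W W'
    obtain ⟨ψ, u, hψu, hφu, hψv, hU, hU'⟩ := adapted2 W W' hφv hW hW' (by omega)
    let a : R K V := ψ.smulRight v
    let b : R K V := φ.smulRight u
    have ha : ∀ w, a w = ψ w • v := fun w => rfl
    have hb : ∀ w, b w = φ w • u := fun w => rfl
    have haa : a * a = 0 := by
      ext w
      rw [Module.End.mul_apply, ha, ha, map_smul, hψv, smul_zero, zero_smul]
      rfl
    have hbb : b * b = 0 := by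
      ext w
      rw [Module.End.mul_apply, hb, hb, map_smul, hφu, smul_zero, zero_smul]
      rfl
    have hab : ∀ w, (a * b) w = φ w • v := fun w => by
      rw [Module.End.mul_apply, hb, map_smul, ha, hψu, one_smul]
    have hba : ∀ w, (b * a) w = ψ w • u := fun w => by
      rw [Module.End.mul_apply, ha, map_smul, hb, hφv, one_smul]
    have haba : a * b * a = a := by
      ext w
      rw [Module.End.mul_apply, hab, ha, map_smul, hφv, smul_eq_mul, mul_one]
    have hbab : b * a * b = b := by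
      ext w
      rw [Module.End.mul_apply, hba, hb, map_smul, hψu, smul_eq_mul, mul_one]
    have ha0 : a ≠ 0 := by
      intro h3
      have h4 : a u = 0 := by rw [h3]; rfl
      rw [ha, hψu, one_smul] at h4
      rw [h4, map_zero] at hφv
      exact zero_ne_one hφv
    obtain ⟨x, hx, -, hdet, h4, -⟩ := Cfsg.Agent.H716.IFO.exists_J haa hbb haba hbab ha0
    have hx2 : ∀ w, ((x * x : (R K V)ˣ) : R K V) w = w - (2 : K) • (φ w • v) - (2 : K) • (ψ w • u) := by
      have e : ∀ w, (x : R K V) w = w - φ w • v - ψ w • u + ψ w • v - φ w • u := fun w => by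
        rw [hx]
        simp only [LinearMap.sub_apply, LinearMap.add_apply, Module.End.one_apply, hab, hba, ha, hb]
      intro w
      rw [Units.val_mul, Module.End.mul_apply, e, e]
      simp only [map_sub, map_add, map_smul, hφv, hψv, hψu, hφu, smul_eq_mul, mul_one, mul_zero, sub_zero, add_zero]
      module
    refine ⟨x * x, ?_, ?_, ?_, ?_, ?_⟩
    · rw [Units.val_mul, map_mul, hdet, mul_one]
    · intro h3
      obtain ⟨s, hs⟩ := cj_eq_one h3
      have hs' : ∀ w, w - (2 : K) • (φ w • v) - (2 : K) • (ψ w • u) = s • w := fun w => by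
        rw [← hx2, hs]
        rfl
      have hv0 : v ≠ 0 := by
        rintro rfl
        rw [map_zero] at hφv
        exact zero_ne_one hφv
      have hs1 : s = -1 := by
        have h5 := hs' v
        rw [hφv, hψv, zero_smul, smul_zero, sub_zero, one_smul] at h5
        have h6 : (s + 1) • v = 0 := by
          rw [add_smul, ← h5, one_smul, two_smul]
          abel
        rcases smul_eq_zero.1 h6 with h7 | h7
        · exact eq_neg_of_add_eq_zero_left h7
        · exact absurd h7 hv0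
      -- a vector killed by `φ` and `ψ`
      have h5 : ∃ w : V, w ≠ 0 ∧ φ w = 0 ∧ ψ w = 0 := by
        have h6 : 0 < finrank K (LinearMap.ker (φ.prod ψ)) := by
          have h7 := LinearMap.finrank_range_add_finrank_ker (φ.prod ψ)
          have h8 : finrank K (LinearMap.range (φ.prod ψ)) ≤ 2 := by
            have := Submodule.finrank_le (LinearMap.range (φ.prod ψ))
            rwa [Module.finrank_prod, Module.finrank_self] at this
          omega
        have h9 : Nontrivial (LinearMap.ker (φ.prod ψ)) := Module.nontrivial_of_finrank_pos (R := K) h6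
        obtain ⟨w, hw⟩ := exists_ne (0 : LinearMap.ker (φ.prod ψ))
        have h10 : (φ.prod ψ) (w : V) = 0 := LinearMap.mem_ker.1 w.2
        refine ⟨w, fun h => hw (Subtype.ext h), ?_, ?_⟩
        · exact congrArg Prod.fst h10
        · exact congrArg Prod.snd h10
      obtain ⟨w, hw, hw1, hw2⟩ := h5
      have h6 := hs' w
      rw [hw1, hw2, zero_smul, zero_smul, smul_zero, sub_zero, sub_zero, hs1, neg_one_smul] at h6
      have h7 : (2 : K) • w = 0 := by
        rw [two_smul]
        nth_rewrite 1 [h6]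
        exact neg_add_cancel w
      rcases smul_eq_zero.1 h7 with h8 | h8
      · exact h2 h8
      · exact hw h8
    · rw [← pow_two, ← pow_mul, h4]
    · intro w hw
      rw [hx2]
      exact W.sub_mem (W.sub_mem hw (W.smul_mem _ (inv_of_adapted hW hw))) (W.smul_mem _ (inv_of_adapted hU hw))
    · intro w hw
      rw [hx2]
      exact W'.sub_mem (W'.sub_mem hw (W'.smul_mem _ (inv_of_adapted hW' hw))) (W'.smul_mem _ (inv_of_adapted hU' hw))

end Cfsg.Agent.H14.IFO
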