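import Cfsg.Agent.H716.IFO.Cases
import Cfsg.Agent.H14.IFO.Two

/-!
# S5719, `|A|` odd, linear groups (helper14 for helper716): the reducible case
-/

set_option autoImplicit false
set_option linter.unusedSectionVars false

namespace Cfsg.Agent.H14.IFO
open Cfsg.Agent.H198.FC Cfsg.Agent.H716.FC Cfsg.Agent.H716.IFO Module

universe u v

section pair

variable {α : Type*}

theorem image_mul' (f g : Equiv.Perm α) (X : Set α) : (f * g : Equiv.Perm α) '' X = f '' (g '' X) := by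
  rw [Set.image_image]
  rfl

theorem image_inv' {f : Equiv.Perm α} {X Y : Set α} (h : f '' X = Y) : (f⁻¹ : Equiv.Perm α) '' Y = X := by
  rw [← h, Set.image_image]
  simp

theorem image_one' (X : Set α) : (1 : Equiv.Perm α) '' X = X := by
  simp

/-- the stabiliser of the unordered pair `{X, Y}` -/
def Pr (X Y : Set α) : Subgroup (Equiv.Perm α) where
  carrier := {f | (f '' X = X ∧ f '' Y = Y) ∨ (f '' X = Y ∧ f '' Y = X)}
  one_mem' := Or.inl ⟨image_one' X, image_one' Y⟩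
  mul_mem' := by
    rintro f g (⟨h1, h2⟩ | ⟨h1, h2⟩) (⟨h3, h4⟩ | ⟨h3, h4⟩)
    · exact Or.inl ⟨by rw [image_mul', h3, h1], by rw [image_mul', h4, h2]⟩
    · exact Or.inr ⟨by rw [image_mul', h3, h2], by rw [image_mul', h4, h1]⟩
    · exact Or.inr ⟨by rw [image_mul', h3, h1], by rw [image_mul', h4, h2]⟩
    · exact Or.inl ⟨by rw [image_mul', h3, h2], by rw [image_mul', h4, h1]⟩
  inv_mem' := by
    rintro f (⟨h1, h2⟩ | ⟨h1, h2⟩)
    · exact Or.inl ⟨image_inv' h1, image_inv' h2⟩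
    · exact Or.inr ⟨image_inv' h2, image_inv' h1⟩

/-- the pointwise stabiliser -/
def Pr0 (X Y : Set α) : Subgroup (Equiv.Perm α) where
  carrier := {f | f '' X = X ∧ f '' Y = Y}
  one_mem' := ⟨image_one' X, image_one' Y⟩
  mul_mem' := by
    rintro f g ⟨h1, h2⟩ ⟨h3, h4⟩
    exact ⟨by rw [image_mul', h3, h1], by rw [image_mul', h4, h2]⟩
  inv_mem' := by
    rintro f ⟨h1, h2⟩
    exact ⟨image_inv' h1, image_inv' h2⟩

theorem Pr0_norm {X Y : Set α} {t x : Equiv.Perm α} (ht : t ∈ Pr X Y) (hx : x ∈ Pr0 X Y) : t * x * t⁻¹ ∈ Pr0 X Y := by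
  obtain ⟨h1, h2⟩ := hx
  rcases ht with ⟨h3, h4⟩ | ⟨h3, h4⟩
  · exact ⟨by rw [image_mul', image_inv' h3, image_mul', h1, h3], by rw [image_mul', image_inv' h4, image_mul', h2, h4]⟩
  · exact ⟨by rw [image_mul', image_inv' h4, image_mul', h2, h4], by rw [image_mul', image_inv' h3, image_mul', h1, h3]⟩

theorem image_eq_of_subset [Finite α] {f : Equiv.Perm α} {X : Set α} (h : ∀ x ∈ X, f x ∈ X) : f '' X = X := by
  apply Set.eq_of_subset_of_ncard_le
  · rintro _ ⟨x, hx, rfl⟩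
    exact h x hx
  · rw [Set.ncard_image_of_injective _ f.injective]
  · exact Set.toFinite _

end pair

variable {K : Type u} [Field K] {V : Type v} [AddCommGroup V] [Module K V]

/-- the right ideal of a subspace -/
def RI (W : Submodule K V) : Set (R K V) := {X | ∀ v, X v ∈ W}

/-- the left ideal of a subspace -/
def LI (W : Submodule K V) : Set (R K V) := {Y | ∀ w ∈ W, Y w = 0}

theorem cj_RI {W : Submodule K V} {x : (R K V)ˣ} (h : ∀ w ∈ W, (x : R K V) w ∈ W) : ∀ X ∈ RI W, cj K V x X ∈ RI W := by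
  intro X hX v
  rw [cj_apply, Module.End.mul_apply, Module.End.mul_apply]
  exact h _ (hX _)

theorem cj_LI {W : Submodule K V} {x : (R K V)ˣ} (h : ∀ w ∈ W, ((x⁻¹ : (R K V)ˣ) : R K V) w ∈ W) :
    ∀ X ∈ LI W, cj K V x X ∈ LI W := by
  intro X hX w hw
  rw [cj_apply, Module.End.mul_apply, Module.End.mul_apply, hX _ (h w hw), map_zero]

theorem map_RI (W : Submodule K V) {κ : Equiv.Perm (R K V)} (hκ : ∀ X Y, κ (X * Y) = κ Y * κ X) :
    ∃ W' : Submodule K V, κ '' RI W = LI W' := by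
  obtain ⟨e, he, he'⟩ := Cfsg.Agent.H923.FC.exists_proj W
  have hee : e * e = e := LinearMap.ext fun v => he' _ (he v)
  have hκe : κ e * κ e = κ e := by rw [← hκ, hee]
  refine ⟨LinearMap.ker (κ e), ?_⟩
  ext Y
  constructor
  · rintro ⟨X, hX, rfl⟩ w hw
    have h1 : e * X = X := LinearMap.ext fun v => he' _ (hX v)
    have h2 : κ X = κ X * κ e := by rw [← hκ, h1]
    rw [h2, Module.End.mul_apply, LinearMap.mem_ker.1 hw, map_zero]
  · intro hY
    have h1 : Y * κ e = Y := by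
      ext v
      have h2 : v - κ e v ∈ LinearMap.ker (κ e) := by
        rw [LinearMap.mem_ker, map_sub, ← Module.End.mul_apply, hκe, sub_self]
      have h3 := hY _ h2
      rw [map_sub, sub_eq_zero] at h3
      rw [Module.End.mul_apply, ← h3]
    refine ⟨κ.symm Y, ?_, κ.apply_symm_apply Y⟩
    have h2 : e * κ.symm Y = κ.symm Y := by
      apply κ.injective
      rw [hκ, κ.apply_symm_apply, h1]
    intro v
    rw [← h2, Module.End.mul_apply]
    exact he _

variable {A S : Subgroup (Equiv.Perm (R K V))} [Finite K] [Module.Finite K V]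

/-- **the reducible case** -/
theorem case_red (h : Fr (SLX K V) A S) {W : Submodule K V} (hW1 : W ≠ ⊥) (hW2 : W ≠ ⊤)
    (hW : ∀ f ∈ S, f ∈ RP K V → Stb f W) : False := by
  have := h.nontriv
  have : Finite (R K V) := finite_R
  have hst : ∀ f ∈ S, f ∈ RP K V → f '' RI W = RI W := fun f hf hfP => image_eq_of_subset (hW f hf hfP)
  -- the second set
  have key : ∃ (L : Set (R K V)) (W' : Submodule K V), (L = RI W ∨ L = LI W') ∧
      (∀ f ∈ S, f ∈ RP K V → f '' L = L) ∧ S ≤ Pr (RI W) L := by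
    by_cases hκ : ∃ κ ∈ S, κ ∉ RP K V
    · obtain ⟨κ, hκ, hκP⟩ := hκ
      obtain ⟨W', hW'⟩ := map_RI W (Cfsg.Agent.H923.FC.anti_mul h.hS hκ hκP)
      have h1 : ∀ f ∈ S, f ∈ RP K V → f '' (κ '' RI W) = κ '' RI W := by
        intro f hf hfP
        have h2 : κ⁻¹ * (f * κ) ∈ RP K V := by
          have h3 : f * κ ∉ RP K V := fun h4 => hκP (by simpa using mul_mem (inv_mem hfP) h4)
          exact Cfsg.Agent.H923.FC.anti_anti h.hS (inv_mem hκ) (Cfsg.Agent.H923.FC.inv_not hκP) (mul_mem hf hκ) h3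
        have h3 := hst _ (mul_mem (inv_mem hκ) (mul_mem hf hκ)) h2
        have h4 : κ '' ((κ⁻¹ * (f * κ) : Equiv.Perm (R K V)) '' RI W) = κ '' RI W := by rw [h3]
        rw [← image_mul', mul_inv_cancel_left, image_mul'] at h4
        exact h4
      refine ⟨κ '' RI W, W', Or.inr hW', h1, ?_⟩
      intro f hf
      by_cases hfP : f ∈ RP K V
      · exact Or.inl ⟨hst f hf hfP, h1 f hf hfP⟩
      · right
        have h2 : f * κ ∈ RP K V := Cfsg.Agent.H923.FC.anti_anti h.hS hf hfP hκ hκP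
        have h3 : f * κ⁻¹ ∈ RP K V :=
          Cfsg.Agent.H923.FC.anti_anti h.hS hf hfP (inv_mem hκ) (Cfsg.Agent.H923.FC.inv_not hκP)
        constructor
        · have h4 := h1 _ (mul_mem hf (inv_mem hκ)) h3
          rwa [← image_mul', inv_mul_cancel_right] at h4
        · have h4 := hst _ (mul_mem hf hκ) h2
          rwa [image_mul'] at h4
    · push Not at hκ
      refine ⟨RI W, W, Or.inl rfl, hst, fun f hf => Or.inl ⟨hst f hf (hκ f hf), hst f hf (hκ f hf)⟩⟩
  obtain ⟨L, W', hL, hLS, hS⟩ := key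
  obtain ⟨x, hx1, hxc, hx2, hxW, hxW'⟩ := two_el h.hn W W'
  have hxi : x⁻¹ = x := inv_eq_of_mul_eq_one_left (by rw [← pow_two]; exact hx2)
  have hx0 : cj K V x ∈ Pr0 (RI W) L := by
    refine ⟨image_eq_of_subset (cj_RI hxW), ?_⟩
    rcases hL with rfl | rfl
    · exact image_eq_of_subset (cj_RI hxW)
    · exact image_eq_of_subset (cj_LI (by rw [hxi]; exact hxW'))
  have h1 := h.le_of_even (Pr (RI W) L) hS (cj_mem hx1) (Or.inl hx0) 1
    (by rw [show (2 : ℕ) ^ 1 = 2 from rfl, ← map_pow, hx2, map_one]) hxc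
  obtain ⟨y, hy, hy1⟩ : ∃ y ∈ A, y ≠ 1 := by
    by_contra hcon
    push Not at hcon
    exact h.A1 ((Subgroup.eq_bot_iff_forall A).2 hcon)
  have hyP : (y : Equiv.Perm (R K V)) ∈ RP K V := by
    obtain ⟨z, -, hz⟩ := h.AX hy
    rw [← hz]
    exact cj_mem_RP z
  have h2 := h.eq_top (Pr0 (RI W) L) (fun t ht x hx => Pr0_norm (h1 ht) hx) (h.AX hy)
    ⟨hst y (h.AS hy) hyP, hLS y (h.AS hy) hyP⟩ hy1
  -- a transvection moving `W`
  obtain ⟨w, hw, hw0⟩ := W.ne_bot_iff.1 hW1
  obtain ⟨v, hv⟩ : ∃ v, v ∉ W := by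
    by_contra hcon
    push Not at hcon
    exact hW2 (eq_top_iff.2 fun u _ => hcon u)
  have hwv : w ∉ Submodule.span K {v} := by
    intro h3
    obtain ⟨c, rfl⟩ := Submodule.mem_span_singleton.1 h3
    have hc : c ≠ 0 := by
      rintro rfl
      exact hw0 (zero_smul _ _)
    apply hv
    have h4 := W.smul_mem c⁻¹ hw
    rwa [smul_smul, inv_mul_cancel₀ hc, one_smul] at h4
  obtain ⟨φ, hφ1, hφ2⟩ := Submodule.exists_le_ker_of_notMem hwv
  have hφv : φ v = 0 := hφ2 (Submodule.mem_span_singleton_self v)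
  let N : R K V := φ.smulRight v
  have hN : ∀ w, N w = φ w • v := fun w => rfl
  have hNN : N * N = 0 := by
    ext w
    rw [Module.End.mul_apply, hN, hN, map_smul, hφv, smul_zero, zero_smul]
    rfl
  obtain ⟨z, hz, hzi, hz1⟩ := exists_un hNN
  obtain ⟨e, he, he'⟩ := Cfsg.Agent.H923.FC.exists_proj W
  have h3 : cj K V z e ∈ RI W := by
    rw [← (h2 (cj_mem hz1)).1]
    exact ⟨e, he, rfl⟩
  have h4 := h3 ((z : R K V) w)
  rw [cj_apply, Module.End.mul_apply, Module.End.mul_apply, ← Module.End.mul_apply ((z⁻¹ : (R K V)ˣ) : R K V), Units.inv_mul,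
    Module.End.one_apply, he' w hw, hz, LinearMap.add_apply, Module.End.one_apply, hN] at h4
  have h5 := W.sub_mem h4 hw
  rw [add_sub_cancel_left] at h5
  apply hv
  have h6 := W.smul_mem (φ w)⁻¹ h5
  rwa [smul_smul, inv_mul_cancel₀ hφ1, one_smul] at h6

end Cfsg.Agent.H14.IFO
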